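import Cfsg.Agent.Nodes.NormalForm
import Cfsg.Agent.Nodes.RGDLib
import Cfsg.Agent.H636.ElemAb

/-!
# Sylow 2-subgroups of groups with a root group datum: exponent of the abelianization

`R : RGD cs h 2 T n X` a root group datum, the root groups generating the finite group `Y`.
If `x * x ∈ ⁅X α, X α⁆` for all `x` in the simple root groups `X α`, then `x ^ 2 ∈ S'` for all `x` in a
Sylow 2-subgroup `S`.
-/

set_option autoImplicit false
set_option linter.unusedSectionVars false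

namespace Cfsg.Agent.H636.RgdAb

open CoxeterSystem Cfsg.Agent.ChevalleyStructure.CoxeterGeom Cfsg.Agent.Tits.Roots Cfsg.Agent.Tits.Core
  Cfsg.Agent.Tits.RootComb Cfsg.Agent.Nodes.Comb Cfsg.Agent.Nodes.Reps Cfsg.Agent.Nodes.BNOf
  Cfsg.Agent.Nodes.Bruhat Cfsg.Agent.Nodes.RGDLib
open Cfsg.Agent.H636.ElemAb
open scoped commutatorElement

variable {I W Y : Type*} [Fintype I] [DecidableEq I] [Group W] [Group Y] {M : CoxeterMatrix I}
  {cs : CoxeterSystem M W} {A : I → I → ℤ} {h : IsCartan M A} {T : Subgroup Y} {n : I → Y}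
  {X : (I → ℤ) → Subgroup Y}

/-- The Sylow 2-subgroup `U`. -/
theorem exists_syl [Finite W] [Finite Y] (R : RGD cs h 2 T n X) (hG : G1 cs h X = ⊤) :
    ∃ S : Sylow 2 Y, (S : Subgroup Y) = RGD.Sup X (RGD.Pos cs h) := by
  have : Fact (Nat.Prime 2) := ⟨Nat.prime_two⟩
  have hGG : GG cs h T X = ⊤ := by
    rw [eq_top_iff, ← hG]
    exact iSup_le fun x => X_le_GG x.2
  have hU : IsPGroup 2 ↥(RGD.Sup X (RGD.Pos cs h)) := R.isPGroup_Upos
  obtain ⟨P, hP⟩ := hU.exists_le_sylow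
  exact ⟨P, Cfsg.Agent.Nodes.NormalForm.eq_U_of_isPGroup R P.2 hP (by rw [hGG]; exact le_top)⟩

/-- The property passes from the simple root groups to all root groups. -/
theorem sq_mem_root (R : RGD cs h 2 T n X) (hX : ∀ i, ∀ x ∈ X (sr i), x ^ 2 ∈ ⁅X (sr i), X (sr i)⁆)
    {r : I → ℤ} (hr : IsRoot cs h r) {x : Y} (hx : x ∈ X r) : x ^ 2 ∈ ⁅X r, X r⁆ := by
  obtain ⟨w, i, rfl⟩ := hr
  obtain ⟨g, hg⟩ := exists_rp cs R.nsys w
  rw [← R.conj_rp hg (isRoot_sr cs h i)] at hx ⊢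
  obtain ⟨y, hy, rfl⟩ := hx
  unfold Cfsg.Agent.Nodes.Reps.cj
  rw [← Subgroup.map_commutator, ← map_pow]
  exact ⟨_, hX i y hy, rfl⟩

/-- **Main lemma.** -/
theorem sq_mem_of_rgd [Finite W] [Finite Y] (R : RGD cs h 2 T n X) (hG : G1 cs h X = ⊤)
    (hX : ∀ i, ∀ x ∈ X (sr i), x ^ 2 ∈ ⁅X (sr i), X (sr i)⁆) (S : Sylow 2 Y) (x : (S : Subgroup Y)) :
    x ^ 2 ∈ commutator (S : Subgroup Y) := by
  have : Fact (Nat.Prime 2) := ⟨Nat.prime_two⟩
  obtain ⟨P, hP⟩ := exists_syl R hG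
  refine sylow_congr P S (fun y => ?_) x
  refine pow_mem_of_subset 2 (P : Subgroup Y) (⋃ r : RGD.Pos cs h, (X r.1 : Set Y)) ?_ ?_ ?_ y
  · intro z hz
    obtain ⟨r, hr⟩ := Set.mem_iUnion.1 hz
    rw [hP]
    exact RGD.le_Sup r.2 hr
  · rw [hP]
    refine RGD.Sup_le fun r hr z hz => ?_
    exact Subgroup.subset_closure (Set.mem_iUnion.2 ⟨⟨r, hr⟩, hz⟩)
  · intro s hs
    obtain ⟨r, hr⟩ := Set.mem_iUnion.1 hs
    have h1 : X r.1 ≤ (P : Subgroup Y) := by
      rw [hP]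
      exact RGD.le_Sup r.2
    exact Subgroup.commutator_mono h1 h1 (sq_mem_root R hX r.2.1 hr)

/-- **Main lemma**, root groups of exponent two. -/
theorem sq_mem_of_rgd' [Finite W] [Finite Y] (R : RGD cs h 2 T n X) (hG : G1 cs h X = ⊤)
    (hX : ∀ i, ∀ x ∈ X (sr i), x * x = 1) (S : Sylow 2 Y) (x : (S : Subgroup Y)) :
    x ^ 2 ∈ commutator (S : Subgroup Y) :=
  sq_mem_of_rgd R hG (fun i y hy => by rw [pow_two, hX i y hy]; exact Subgroup.one_mem _) S x

/-- The conclusion of the statement, as a property of a group. -/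
def SylEl (Y : Type*) [Group Y] : Prop :=
  ∀ S : Sylow 2 Y, ∀ x : (S : Subgroup Y), x ^ 2 ∈ commutator (S : Subgroup Y)

/-- Invariance under isomorphism. -/
theorem SylEl.of_equiv {Y Z : Type*} [Group Y] [Group Z] [Finite Y] (e : Z ≃* Y) (hY : SylEl Y) : SylEl Z := by
  intro S
  have : Fact (Nat.Prime 2) := ⟨Nat.prime_two⟩
  have : Finite Z := Finite.of_equiv Y e.symm.toEquiv
  have hs : Function.Surjective e.toMonoidHom := e.surjective
  have hi : Function.Injective e.toMonoidHom := e.injective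
  have h1 := hY (S.mapSurjective hs)
  have e1 : (S : Subgroup Z) ≃* ((S.mapSurjective hs : Sylow 2 Y) : Subgroup Y) :=
    ((S : Subgroup Z).equivMapOfInjective e.toMonoidHom hi).trans
      (MulEquiv.subgroupCongr (Sylow.coe_mapSurjective _ _).symm)
  exact congr e1.symm h1

/-- It is enough to treat one Sylow subgroup. -/
theorem sylEl_of {Y : Type*} [Group Y] [Finite Y] (P : Sylow 2 Y)
    (hP : ∀ x : (P : Subgroup Y), x ^ 2 ∈ commutator (P : Subgroup Y)) : SylEl Y := by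
  have : Fact (Nat.Prime 2) := ⟨Nat.prime_two⟩
  exact fun S => sylow_congr P S hP

end Cfsg.Agent.H636.RgdAb
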