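import Cfsg.Agent.Nodes.RGDChev
import Cfsg.Agent.H636.RgdAb

/-!
# Chevalley groups in characteristic 2: the Sylow 2-subgroups have elementary abelian abelianization
-/

set_option autoImplicit false
set_option linter.unusedSectionVars false

namespace Cfsg.Agent.H636.LieTwoChev

open CoxeterSystem Cfsg.Agent.ChevalleyStructure.CoxeterGeom Cfsg.Agent.Tits.Roots Cfsg.Agent.Tits.Core
  Cfsg.Agent.Tits.RootComb Cfsg.Agent.Nodes.Comb Cfsg.Agent.Nodes.Reps Cfsg.Agent.Nodes.BNOf
  Cfsg.Agent.Nodes.RGDChev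
open Cfsg.Lie Cfsg.Agent.ChevalleyStructure Cfsg.Agent.ChevalleyStructure.Elts
  Cfsg.Agent.ChevalleyStructure.NPerm Cfsg.Agent.ChevalleyStructure.CoxeterGeomTypes
open Cfsg.Agent.H636.RgdAb

universe u

section Chev

variable {D : ChevalleyDatum} {l : ℕ} {M : CoxeterMatrix (Fin l)} (hp : IsType D l M) {K : Type u} [Field K]

include hp in
theorem sylEl_chev [Finite K] [CharP K 2] : SylEl ↥(D.group K) := by
  have : Fact (Nat.Prime 2) := ⟨Nat.prime_two⟩
  have hW : Finite M.Group := finite_W hp M.toCoxeterSystem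
  refine fun S => sq_mem_of_rgd' (rgd hp M.toCoxeterSystem 2) (G1_eq_top hp M.toCoxeterSystem) (fun i x hx => ?_) S
  have hi := simple_lt hp.inList (lt_rank hp i)
  rw [← vec_simple hp i, Subgroup.mem_subgroupOf, XV_vec hp K hi, mem_rootSubgroup_iff hp.inList] at hx
  obtain ⟨a, ha⟩ := hx
  apply Subtype.ext
  rw [Subgroup.coe_mul, ha, xG_add, CharTwo.add_self_eq_zero, xG_zero]
  rfl

end Chev

variable (K : Type u) [Field K] [Finite K] [CharP K 2]

theorem sylEl_G2 : SylEl ↥(chevG2.group K) :=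
  sylEl_chev (l := 2) (M := CoxeterMatrix.G₂) (by simp [IsType, typeList])

theorem sylEl_F4 : SylEl ↥(chevF4.group K) :=
  sylEl_chev (l := 4) (M := CoxeterMatrix.F₄) (by simp [IsType, typeList])

theorem sylEl_E6 : SylEl ↥(chevE6.group K) :=
  sylEl_chev (l := 6) (M := CoxeterMatrix.E₆) (by simp [IsType, typeList])

theorem sylEl_E7 : SylEl ↥(chevE7.group K) :=
  sylEl_chev (l := 7) (M := CoxeterMatrix.E₇) (by simp [IsType, typeList])

theorem sylEl_E8 : SylEl ↥(chevE8.group K) :=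
  sylEl_chev (l := 8) (M := CoxeterMatrix.E₈) (by simp [IsType, typeList])

end Cfsg.Agent.H636.LieTwoChev
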